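import Cfsg.Agent.FreeRealize.Walk
import Cfsg.Prelude.Def_FusionSystem
import Mathlib.GroupTheory.FreeGroup.NielsenSchreier
import Mathlib.GroupTheory.Perm.Subgroup

/-!
# Every fusion system is realised by a virtually free group

The group is the fundamental group of the graph of groups with one vertex `S` and one loop for
each map of the system, built inside `FreeGroup E ⋊ Perm S`.
-/

set_option autoImplicit false

namespace CfsgLib.FreeRealize

open Cfsg MulAction

universe u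

variable {Ω : Type u} [Group Ω] {S : Subgroup Ω} [Finite S] (F : FusionSystem S)

/-- the maps of the system -/
def Mor : Type u := Σ P : Subgroup Ω, {φ : P →* Ω // φ ∈ F.Hom P}

variable {F}

/-- left regular representation -/
noncomputable def reg (S : Subgroup Ω) : S →* Equiv.Perm S := MulAction.toPermHom S S

lemma reg_apply (x y : S) : reg S x y = x * y := rfl

lemma reg_injective : Function.Injective (reg S) := fun a b h => by
  simpa [reg_apply] using congrArg (fun σ : Equiv.Perm S => σ 1) h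

/-- A map of the system is conjugation by a permutation of `S`. -/
lemma exists_perm (i : Mor F) : ∃ σ : Equiv.Perm S, ∀ x : i.1,
    σ * reg S ⟨x, (F.le_of_mem i.2.2).1 x.2⟩ = reg S ⟨i.2.1 x, (F.le_of_mem i.2.2).2 x⟩ * σ := by
  classical
  obtain ⟨P, φ, hφ⟩ := i
  obtain ⟨hPS, him⟩ := F.le_of_mem hφ
  dsimp only
  let P' := P.subgroupOf S
  let e : P' →* S :=
    (φ.comp ((Subgroup.subgroupOfEquivOfLe hPS).toMonoidHom)).codRestrict S (fun _ => him _)
  have he : Function.Injective e := fun a b h => by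
    have := congrArg Subtype.val h
    exact (Subgroup.subgroupOfEquivOfLe hPS).injective (F.injective_of_mem hφ this)
  let Q' := e.range
  have hidx : Nat.card (S ⧸ P') = Nat.card (S ⧸ Q') := by
    have h1 := Subgroup.card_eq_card_quotient_mul_card_subgroup P'
    have h2 := Subgroup.card_eq_card_quotient_mul_card_subgroup Q'
    rw [show Nat.card Q' = Nat.card P' from (Nat.card_congr (MonoidHom.ofInjective he).toEquiv).symm,
      h1] at h2
    exact Nat.eq_of_mul_eq_mul_right Nat.card_pos h2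
  let f : S ⧸ P' ≃ S ⧸ Q' := (Finite.card_eq.1 hidx).some
  have hmem : ∀ s : S, (QuotientGroup.mk s : S ⧸ P').out⁻¹ * s ∈ P' := fun s => by
    rw [← QuotientGroup.eq]; exact Quotient.out_eq _
  let σ' : S → S := fun s => (f (QuotientGroup.mk s)).out * e ⟨_, hmem s⟩
  have hσinj : Function.Injective σ' := by
    intro a b hab
    have h1 : (f (QuotientGroup.mk a)) = f (QuotientGroup.mk b) := by
      have : (QuotientGroup.mk (σ' a) : S ⧸ Q') = QuotientGroup.mk (σ' b) := by rw [hab]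
      simp only [σ'] at this
      rwa [QuotientGroup.mk_mul_of_mem _ (⟨_, rfl⟩ : e _ ∈ Q'),
        QuotientGroup.mk_mul_of_mem _ (⟨_, rfl⟩ : e _ ∈ Q'),
        QuotientGroup.out_eq', QuotientGroup.out_eq'] at this
    have h2 : (QuotientGroup.mk a : S ⧸ P') = QuotientGroup.mk b := f.injective h1
    simp only [σ', h1] at hab
    have h3 := congrArg Subtype.val (he (mul_left_cancel hab))
    simp only [h2] at h3
    exact mul_left_cancel h3
  have heq : ∀ (s : S) (x : P), σ' (s * ⟨x, hPS x.2⟩) = σ' s * ⟨φ x, him x⟩ := by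
    intro s x
    have hx : (⟨x, hPS x.2⟩ : S) ∈ P' := x.2
    have h1 : (QuotientGroup.mk (s * ⟨x, hPS x.2⟩) : S ⧸ P') = QuotientGroup.mk s :=
      QuotientGroup.mk_mul_of_mem _ hx
    have h2 : (⟨_, hmem (s * ⟨x, hPS x.2⟩)⟩ : P') = ⟨_, hmem s⟩ * ⟨_, hx⟩ := by
      apply Subtype.ext
      show (QuotientGroup.mk (s * ⟨x, hPS x.2⟩) : S ⧸ P').out⁻¹ * (s * ⟨x, hPS x.2⟩) =
        ((QuotientGroup.mk s : S ⧸ P').out⁻¹ * s) * ⟨x, hPS x.2⟩
      rw [h1, mul_assoc]
    simp only [σ']
    rw [h2, map_mul, h1, ← mul_assoc]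
    rfl
  have hbij := Finite.injective_iff_bijective.1 hσinj
  refine ⟨((Equiv.inv S).trans (Equiv.ofBijective σ' hbij)).trans (Equiv.inv S), fun x => ?_⟩
  ext1 t
  simp only [Equiv.Perm.mul_apply, reg_apply, Equiv.trans_apply, Equiv.inv_apply,
    Equiv.ofBijective_apply, mul_inv_rev]
  have h1 : (⟨x, hPS x.2⟩ : S)⁻¹ = ⟨((x⁻¹ : P) : Ω), hPS (x⁻¹).2⟩ := Subtype.ext (by simp)
  have h2 : (⟨φ x, him x⟩ : S)⁻¹ = ⟨φ (x⁻¹), him _⟩ := Subtype.ext (by simp)
  rw [h1, heq, ← h2, mul_inv_rev, inv_inv]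

noncomputable def sigma (i : Mor F) : Equiv.Perm S := (exists_perm i).choose

lemma sigma_conj (i : Mor F) (x : i.1) :
    sigma i * reg S ⟨x, (F.le_of_mem i.2.2).1 x.2⟩ =
      reg S ⟨i.2.1 x, (F.le_of_mem i.2.2).2 x⟩ * sigma i := (exists_perm i).choose_spec x

/-- image of the source of a map in `Perm S` -/
noncomputable def edgeStab (i : Mor F) : Subgroup (Equiv.Perm S) :=
  (i.2.1.range.subgroupOf S).map (reg S)

lemma mem_edgeStab {i : Mor F} {q : Equiv.Perm S} : q ∈ edgeStab i ↔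
    ∃ x : i.1, q = reg S ⟨i.2.1 x, (F.le_of_mem i.2.2).2 x⟩ := by
  constructor
  · rintro ⟨y, hy, rfl⟩
    obtain ⟨x, hx⟩ := hy
    exact ⟨x, congrArg (reg S) (Subtype.ext hx.symm)⟩
  · rintro ⟨x, rfl⟩
    exact ⟨_, ⟨x, rfl⟩, rfl⟩

abbrev Vert (_F : FusionSystem S) : Type u := Equiv.Perm S ⧸ (reg S).range

variable (F) in
def Edge : Type u := Σ i : Mor F, Equiv.Perm S ⧸ edgeStab i

noncomputable instance : MulAction (Equiv.Perm S) (Edge F) where
  smul g x := ⟨x.1, g • x.2⟩
  one_smul x := by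
    obtain ⟨i, c⟩ := x
    show (⟨i, (1 : Equiv.Perm S) • c⟩ : Edge F) = ⟨i, c⟩
    rw [one_smul]
  mul_smul g h x := by
    obtain ⟨i, c⟩ := x
    show (⟨i, (g * h) • c⟩ : Edge F) = ⟨i, g • h • c⟩
    rw [mul_smul]

lemma smul_edge (g : Equiv.Perm S) (i : Mor F) (δ : Equiv.Perm S) :
    g • (⟨i, QuotientGroup.mk δ⟩ : Edge F) = ⟨i, QuotientGroup.mk (g * δ)⟩ := rfl

noncomputable def src : Edge F → Vert F := fun x =>
  Quotient.liftOn' x.2 (fun δ => (QuotientGroup.mk δ : Vert F)) (fun a b h => by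
    rw [QuotientGroup.eq]
    obtain ⟨y, -, hy⟩ := QuotientGroup.leftRel_apply.1 h
    exact ⟨y, hy⟩)

noncomputable def tgt : Edge F → Vert F := fun x =>
  Quotient.liftOn' x.2 (fun δ => (QuotientGroup.mk (δ * sigma x.1) : Vert F)) (fun a b h => by
    rw [QuotientGroup.eq]
    obtain ⟨y, hy⟩ := mem_edgeStab.1 (QuotientGroup.leftRel_apply.1 h)
    refine ⟨⟨y, (F.le_of_mem x.1.2.2).1 y.2⟩, ?_⟩
    have h1 := sigma_conj x.1 y
    rw [← hy] at h1
    rw [mul_inv_rev, mul_assoc, ← mul_assoc a⁻¹, ← h1]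
    group)

lemma src_mk (i : Mor F) (δ : Equiv.Perm S) :
    src (⟨i, QuotientGroup.mk δ⟩ : Edge F) = QuotientGroup.mk δ := rfl

lemma tgt_mk (i : Mor F) (δ : Equiv.Perm S) :
    tgt (⟨i, QuotientGroup.mk δ⟩ : Edge F) = QuotientGroup.mk (δ * sigma i) := rfl

lemma equivariant : Equivariant (src (F := F)) tgt (Equiv.Perm S) := by
  constructor
  · rintro g ⟨i, c⟩
    induction c using QuotientGroup.induction_on
    rfl
  · rintro g ⟨i, c⟩
    induction c using QuotientGroup.induction_on with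
    | _ δ =>
      show (QuotientGroup.mk (g * δ * sigma i) : Vert F) = QuotientGroup.mk (g * (δ * sigma i))
      rw [mul_assoc]

variable (F) in
noncomputable abbrev base : Vert F := QuotientGroup.mk 1

lemma smul_base (g : Equiv.Perm S) : g • base F = QuotientGroup.mk g := by
  show (QuotientGroup.mk (g * 1) : Vert F) = _
  rw [mul_one]

lemma smul_base_eq {g : Equiv.Perm S} : g • base F = base F ↔ g ∈ (reg S).range := by
  rw [smul_base, base, QuotientGroup.eq, mul_one, inv_mem_iff]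

/-- One step along an edge fixed by the conjugated subgroup. -/
lemma move (δ : Equiv.Perm S) (a : Edge F × Bool) (ha : ini src tgt a = QuotientGroup.mk δ)
    (R : Subgroup Ω) (hR : R ≤ S)
    (hfix : ∀ r : R, (δ * reg S ⟨r, hR r.2⟩ * δ⁻¹) • a.1 = a.1) :
    ∃ (δ' : Equiv.Perm S) (ψ : R →* Ω) (hψ : ψ ∈ F.Hom R),
      ter src tgt a = QuotientGroup.mk δ' ∧
        ∀ r : R, δ' * reg S ⟨ψ r, (F.le_of_mem hψ).2 r⟩ * δ'⁻¹ = δ * reg S ⟨r, hR r.2⟩ * δ⁻¹ := by
  obtain ⟨⟨i, c⟩, b⟩ := a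
  induction c using QuotientGroup.induction_on with
  | _ ε =>
  have hq : ∀ r : R, ∃ x : i.1,
      ε⁻¹ * (δ * reg S ⟨r, hR r.2⟩ * δ⁻¹) * ε = reg S ⟨i.2.1 x, (F.le_of_mem i.2.2).2 x⟩ := by
    intro r
    have h2 : (QuotientGroup.mk ((δ * reg S ⟨r, hR r.2⟩ * δ⁻¹) * ε) :
        Equiv.Perm S ⧸ edgeStab i) = QuotientGroup.mk ε :=
      eq_of_heq (Sigma.mk.inj (hfix r)).2
    have h3 := QuotientGroup.eq.1 h2.symm
    rw [mem_edgeStab] at h3
    simpa [mul_assoc] using h3
  obtain ⟨P, φ, hφ⟩ := i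
  obtain ⟨ξ, hξ, hξ'⟩ := F.inv_mem hφ
  dsimp only at hq
  cases b with
  | true =>
    -- forward: `δ = ε * s`, then the inverse of `φ`
    have hs : ε⁻¹ * δ ∈ (reg S).range := QuotientGroup.eq.1 ha
    obtain ⟨s, hs⟩ := hs
    have hc : conjHom R (s : Ω) ∈ F.Hom R := F.conj_mem hR s.2
    have key : ∀ r : R, ∃ x : P, conjHom R (s : Ω) r = φ x ∧
        δ * reg S ⟨r, hR r.2⟩ * δ⁻¹ = ε * reg S ⟨φ x, (F.le_of_mem hφ).2 x⟩ * ε⁻¹ := by
      intro r
      obtain ⟨x, hx⟩ := hq r
      refine ⟨x, ?_, by rw [← hx]; group⟩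
      have h4 : reg S (s * ⟨r, hR r.2⟩ * s⁻¹) = reg S ⟨φ x, (F.le_of_mem hφ).2 x⟩ := by
        rw [map_mul, map_mul, map_inv, hs, ← hx]; group
      exact congrArg Subtype.val (reg_injective h4)
    have hcod : ∀ r : R, conjHom R (s : Ω) r ∈ φ.range := fun r => by
      obtain ⟨x, hx, -⟩ := key r
      exact ⟨x, hx.symm⟩
    refine ⟨ε * sigma ⟨P, φ, hφ⟩, _, F.comp_mem hc hξ hcod, rfl, fun r => ?_⟩
    obtain ⟨x, hx1, hx2⟩ := key r
    rw [hx2]
    have h5 : (ξ.comp ((conjHom R (s : Ω)).codRestrict φ.range hcod)) r = (x : Ω) := by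
      show ξ ⟨conjHom R (s : Ω) r, _⟩ = _
      simp only [hx1]
      exact hξ' x
    simp only [h5]
    have h6 := sigma_conj (⟨P, φ, hφ⟩ : Mor F) x
    dsimp only at h6
    rw [mul_assoc ε, h6]
    group
  | false =>
    have hs : (ε * sigma ⟨P, φ, hφ⟩)⁻¹ * δ ∈ (reg S).range := QuotientGroup.eq.1 ha
    obtain ⟨s, hs⟩ := hs
    have hc : conjHom R (s : Ω) ∈ F.Hom R := F.conj_mem hR s.2
    have key : ∀ r : R, ∃ x : P, conjHom R (s : Ω) r = (x : Ω) ∧
        δ * reg S ⟨r, hR r.2⟩ * δ⁻¹ = ε * reg S ⟨φ x, (F.le_of_mem hφ).2 x⟩ * ε⁻¹ := by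
      intro r
      obtain ⟨x, hx⟩ := hq r
      refine ⟨x, ?_, by rw [← hx]; group⟩
      have h6 := sigma_conj (⟨P, φ, hφ⟩ : Mor F) x
      dsimp only at h6
      have h4 : reg S (s * ⟨r, hR r.2⟩ * s⁻¹) = reg S ⟨x, (F.le_of_mem hφ).1 x.2⟩ := by
        rw [map_mul, map_mul, map_inv, hs]
        rw [← hx] at h6
        apply mul_left_cancel (a := sigma ⟨P, φ, hφ⟩)
        rw [h6]
        group
      exact congrArg Subtype.val (reg_injective h4)
    have hcod : ∀ r : R, conjHom R (s : Ω) r ∈ P := fun r => by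
      obtain ⟨x, hx, -⟩ := key r
      exact hx ▸ x.2
    refine ⟨ε, _, F.comp_mem hc hφ hcod, rfl, fun r => ?_⟩
    obtain ⟨x, hx1, hx2⟩ := key r
    rw [hx2]
    have h5 : (φ.comp ((conjHom R (s : Ω)).codRestrict P hcod)) r = φ x :=
      congrArg φ (Subtype.ext hx1)
    simp only [h5]

/-- A walk fixed letterwise gives a map of the system. -/
lemma walk_map {L : List (Edge F × Bool)} :
    ∀ (δ δ' : Equiv.Perm S), Chain src tgt (QuotientGroup.mk δ : Vert F) L (QuotientGroup.mk δ') →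
      ∀ (R : Subgroup Ω) (hR : R ≤ S),
        (∀ r : R, ∀ a ∈ L, (δ * reg S ⟨r, hR r.2⟩ * δ⁻¹) • a.1 = a.1) →
        ∃ (ψ : R →* Ω) (hψ : ψ ∈ F.Hom R), ∀ r : R,
          δ' * reg S ⟨ψ r, (F.le_of_mem hψ).2 r⟩ * δ'⁻¹ = δ * reg S ⟨r, hR r.2⟩ * δ⁻¹ := by
  induction L with
  | nil =>
    intro δ δ' h R hR _
    obtain ⟨s, hs⟩ : δ'⁻¹ * δ ∈ (reg S).range := QuotientGroup.eq.1 h.symm
    refine ⟨conjHom R (s : Ω), F.conj_mem hR s.2, fun r => ?_⟩
    have : (⟨conjHom R (s : Ω) r, (F.le_of_mem (F.conj_mem hR s.2)).2 r⟩ : S) =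
        s * ⟨r, hR r.2⟩ * s⁻¹ := Subtype.ext rfl
    rw [this, map_mul, map_mul, map_inv, hs]
    group
  | cons a L ih =>
    intro δ δ' h R hR hfix
    obtain ⟨δ₁, ψ, hψ, hter, hconj⟩ := move δ a h.1 R hR (fun r => hfix r a (List.mem_cons_self ..))
    have hchain : Chain src tgt (QuotientGroup.mk δ₁ : Vert F) L (QuotientGroup.mk δ') := hter ▸ h.2
    obtain ⟨hR', hψS⟩ := F.le_of_mem hψ
    have hrS : ψ.range ≤ S := by rintro _ ⟨r, rfl⟩; exact hψS r
    obtain ⟨χ, hχ, hχ'⟩ := ih δ₁ δ' hchain ψ.range hrS (by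
      rintro ⟨_, r, rfl⟩ b hb
      rw [hconj r]
      exact hfix r b (List.mem_cons_of_mem _ hb))
    refine ⟨_, F.comp_mem hψ hχ (fun r => ⟨r, rfl⟩), fun r => ?_⟩
    rw [← hconj r]
    exact hχ' ⟨ψ r, r, rfl⟩

open Classical in
variable (F) in
/-- the realising group -/
noncomputable def grp : Subgroup (Walker (Equiv.Perm S) (Edge F)) :=
  walkGroup equivariant (base F)

open Classical in
variable (F) in
/-- the embedding of `S` -/
noncomputable def iota : S →* grp F :=
  (SemidirectProduct.inr.comp (reg S)).codRestrict (grp F) (fun x => by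
    show Chain src tgt (base F) _ _
    simp only [MonoidHom.coe_comp, Function.comp_apply, SemidirectProduct.left_inr,
      SemidirectProduct.right_inr, FreeGroup.toWord_one]
    exact (smul_base_eq.2 ⟨x, rfl⟩).symm)

lemma iota_val (x : S) : (iota F x).val = SemidirectProduct.inr (reg S x) := rfl

lemma iota_injective : Function.Injective (iota F) := fun a b h => by
  have := congrArg (fun m : grp F => m.val.right) h
  simpa [iota_val] using reg_injective this

open Classical in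
theorem realized : F.IsRealizedBy (iota F) := by
  refine ⟨iota_injective, fun P hP φ hφS => ⟨fun hφ => ?_, fun ⟨g, hg⟩ => ?_⟩⟩
  · let i : Mor F := ⟨P, φ, hφ⟩
    let m : Walker (Equiv.Perm S) (Edge F) :=
      ⟨FreeGroup.of (⟨i, QuotientGroup.mk 1⟩ : Edge F), sigma i⟩
    have hm : m ∈ grp F := by
      show Chain src tgt (base F) _ _
      simp only [m, FreeGroup.toWord_of]
      refine ⟨rfl, ?_⟩
      show tgt _ = _
      rw [tgt_mk, smul_base, one_mul]
    refine ⟨⟨m, hm⟩, fun x => ?_⟩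
    rw [eq_mul_inv_iff_mul_eq]
    apply Subtype.ext
    simp only [Subgroup.coe_mul, iota_val]
    ext1
    · simp only [SemidirectProduct.mul_left, SemidirectProduct.left_inr, SemidirectProduct.right_inr,
        map_one, one_mul, mul_one, m, act_of, smul_edge]
      refine congrArg FreeGroup.of ?_
      symm
      refine Sigma.ext rfl (heq_of_eq ?_)
      show (QuotientGroup.mk _ : Equiv.Perm S ⧸ edgeStab i) = QuotientGroup.mk _
      rw [QuotientGroup.eq]
      simp only [mul_one, inv_one, one_mul, inv_mem_iff]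
      exact mem_edgeStab.2 ⟨x, rfl⟩
    · simp only [SemidirectProduct.mul_right, SemidirectProduct.right_inr, m]
      exact (sigma_conj i x).symm
  · obtain ⟨m, hm⟩ := g
    set w := m.left with hw
    set γ := m.right with hγ
    have key : ∀ x : P, act (Equiv.Perm S) (Edge F) (reg S ⟨φ x, hφS x⟩) w = w ∧
        reg S ⟨φ x, hφS x⟩ * γ = γ * reg S ⟨x, hP x.2⟩ := by
      intro x
      have h1 := hg x
      rw [eq_mul_inv_iff_mul_eq] at h1
      have h2 := congrArg Subtype.val h1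
      simp only [Subgroup.coe_mul, iota_val] at h2
      constructor
      · have := congrArg SemidirectProduct.left h2
        simpa using this
      · have := congrArg SemidirectProduct.right h2
        simpa using this
    have hrS : φ.range ≤ S := by rintro _ ⟨x, rfl⟩; exact hφS x
    have hchain : Chain src tgt (QuotientGroup.mk 1 : Vert F) w.toWord (QuotientGroup.mk γ) := by
      have h3 : Chain src tgt (base F) w.toWord (γ • base F) := hm
      rwa [smul_base] at h3
    obtain ⟨ψ, hψ, hψ'⟩ := walk_map 1 γ hchain φ.range hrS (by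
      rintro ⟨_, x, rfl⟩ a ha
      have h4 := congrArg FreeGroup.toWord (key x).1
      rw [toWord_act] at h4
      have h5 := List.map_inj_left.1 (h4.trans (List.map_id _).symm) a ha
      simpa using congrArg Prod.fst h5)
    have hψx : ∀ x : P, ψ ⟨φ x, x, rfl⟩ = (x : Ω) := by
      intro x
      have h6 := hψ' ⟨φ x, x, rfl⟩
      simp only [one_mul, inv_one, mul_one] at h6
      have h7 : reg S ⟨ψ ⟨φ x, x, rfl⟩, (F.le_of_mem hψ).2 _⟩ = reg S ⟨x, hP x.2⟩ := by
        apply mul_left_cancel (a := γ)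
        rw [← (key x).2, ← h6, inv_mul_cancel_right]
      exact congrArg Subtype.val (reg_injective h7)
    obtain ⟨χ, hχ, hχ'⟩ := F.inv_mem hψ
    have hcod : ∀ x : P, conjHom P (1 : Ω) x ∈ ψ.range := fun x =>
      ⟨⟨φ x, x, rfl⟩, by rw [hψx]; simp [conjHom]⟩
    have h8 : χ.comp ((conjHom P (1 : Ω)).codRestrict ψ.range hcod) = φ := by
      ext x
      have h9 := hχ' ⟨φ x, x, rfl⟩
      simp only [hψx] at h9
      refine Eq.trans (congrArg χ (Subtype.ext ?_)) h9
      simp [conjHom]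
    rw [← h8]
    exact F.comp_mem (F.conj_mem hP S.one_mem) hχ hcod

open Classical in
theorem finite_subgroup_conj (H : Subgroup (grp F)) [Finite H] :
    ∃ g : grp F, ∀ h ∈ H, g * h * g⁻¹ ∈ (iota F).range := by
  have hfin : Finite (H.map (grp F).subtype) :=
    Finite.of_equiv H (H.equivMapOfInjective _ (grp F).subtype_injective).toEquiv
  obtain ⟨n, hn⟩ : ∃ n, ∀ h : (H.map (grp F).subtype), h.val.left.toWord.length ≤ n := by
    obtain ⟨n, hn⟩ := (Set.finite_range fun h : (H.map (grp F).subtype) =>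
      h.val.left.toWord.length).bddAbove
    exact ⟨n, fun h => hn ⟨h, rfl⟩⟩
  obtain ⟨u, w, hu, hw⟩ := exists_fixed (equivariant (F := F)) n (base F) (H.map (grp F).subtype)
    hfin (fun h hh => ⟨by obtain ⟨h', -, rfl⟩ := hh; exact h'.2, hn ⟨h, hh⟩⟩)
  obtain ⟨γ, rfl⟩ := QuotientGroup.mk_surjective w
  let m : Walker (Equiv.Perm S) (Edge F) := ⟨u, γ⟩
  have hm : m ∈ grp F := by
    show Chain src tgt (base F) _ _
    simp only [m]
    rwa [smul_base]
  refine ⟨⟨m, hm⟩⁻¹, fun h hh => ?_⟩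
  obtain ⟨h1, h2⟩ := hw _ ⟨h, hh, rfl⟩
  rw [← smul_base, ← mul_smul] at h2
  have h2 : (γ⁻¹ * h.val.right * γ) • base F = base F := by
    rw [mul_assoc, mul_smul]
    exact inv_smul_eq_iff.2 h2
  have h3 : γ⁻¹ * h.val.right * γ ∈ (reg S).range := smul_base_eq.1 h2
  obtain ⟨x, hx⟩ := h3
  refine ⟨x, Subtype.ext ?_⟩
  simp only [iota_val, Subgroup.coe_mul, Subgroup.coe_inv, inv_inv, m]
  ext1
  · simp only [SemidirectProduct.left_inr, SemidirectProduct.mul_left, SemidirectProduct.inv_left,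
      SemidirectProduct.mul_right, SemidirectProduct.inv_right]
    have h1' : h.val.left = u * act (Equiv.Perm S) (Edge F) h.val.right u⁻¹ := h1
    rw [h1']
    simp [mul_assoc]
  · simp [hx, mul_assoc]

open Classical in
theorem free_normal : ∃ N : Subgroup (grp F), N.Normal ∧ IsFreeGroup N ∧
    N.index ∣ (Nat.card S).factorial := by
  let π : grp F →* Equiv.Perm S := SemidirectProduct.rightHom.comp (grp F).subtype
  refine ⟨π.ker, inferInstance, ?_, ?_⟩
  · let l : π.ker →* FreeGroup (Edge F) := MonoidHom.mk' (fun m => m.val.val.left) (by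
      intro a b
      have ha : a.val.val.right = 1 := a.2
      simp [ha])
    have hl : Function.Injective l := by
      intro a b hab
      apply Subtype.ext; apply Subtype.ext
      have ha : a.val.val.right = 1 := a.2
      have hb : b.val.val.right = 1 := b.2
      exact SemidirectProduct.ext hab (ha.trans hb.symm)
    exact IsFreeGroup.ofMulEquiv (MonoidHom.ofInjective hl).symm
  · have := Subgroup.card_subgroup_dvd_card π.range
    rw [Nat.card_perm] at this
    rwa [Subgroup.index_ker]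

end CfsgLib.FreeRealize
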