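import Mathlib.GroupTheory.FreeGroup.Reduce
import Mathlib.GroupTheory.FreeGroup.CyclicallyReduced
import Mathlib.GroupTheory.SemidirectProduct
import Mathlib.GroupTheory.GroupAction.Defs
import Mathlib.Data.Finite.Defs
import Mathlib.Tactic

/-!
# Walks in a graph, their reduced words, and finite subgroups

A group acting on a graph acts on the free group on the edges; pairs (walk from a base vertex to
the translate of the base vertex, translating element) form a group. A finite subgroup of it fixes
a vertex of the covering tree.
-/

set_option autoImplicit false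

namespace CfsgLib.FreeRealize

open scoped List
open FreeGroup

universe u

variable {Γ E V : Type u} [Group Γ] [MulAction Γ E] [MulAction Γ V]

/-- action on the free group on the edges -/
def act (Γ E : Type u) [Group Γ] [MulAction Γ E] : Γ →* MulAut (FreeGroup E) where
  toFun g := FreeGroup.freeGroupCongr (MulAction.toPerm g)
  map_one' := by
    have : (MulAction.toPerm (1 : Γ) : Equiv.Perm E) = Equiv.refl E := by ext x; simp
    rw [this, FreeGroup.freeGroupCongr_refl]; rfl
  map_mul' g h := by
    have : (MulAction.toPerm (g * h) : Equiv.Perm E) =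
        (MulAction.toPerm h : Equiv.Perm E).trans (MulAction.toPerm g) := by
      ext x; simp [mul_smul]
    rw [this, ← FreeGroup.freeGroupCongr_trans]; rfl

def smulL (g : Γ) (L : List (E × Bool)) : List (E × Bool) := L.map (fun a => (g • a.1, a.2))

lemma act_mk (g : Γ) (L : List (E × Bool)) : act Γ E g (FreeGroup.mk L) = FreeGroup.mk (smulL g L) :=
  rfl

lemma act_of (g : Γ) (x : E) : act Γ E g (FreeGroup.of x) = FreeGroup.of (g • x) := rfl

lemma smulL_isReduced (g : Γ) {L : List (E × Bool)} (h : FreeGroup.IsReduced L) : FreeGroup.IsReduced (smulL g L) := by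
  unfold FreeGroup.IsReduced smulL at *
  rw [List.isChain_map]
  exact h.imp (fun a b hab e => hab (smul_left_cancel g e))

lemma toWord_act [DecidableEq E] (g : Γ) (w : FreeGroup E) :
    (act Γ E g w).toWord = smulL g w.toWord := by
  conv_lhs => rw [← mk_toWord (x := w), act_mk, toWord_mk]
  exact (smulL_isReduced g isReduced_toWord).reduce_eq

variable (s t : E → V)

def ini : E × Bool → V
  | (x, true) => s x
  | (x, false) => t x

def ter : E × Bool → V
  | (x, true) => t x
  | (x, false) => s x

lemma ini_not (x : E) (b : Bool) : ini s t (x, !b) = ter s t (x, b) := by cases b <;> rfl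
lemma ter_not (x : E) (b : Bool) : ter s t (x, !b) = ini s t (x, b) := by cases b <;> rfl

def Chain : V → List (E × Bool) → V → Prop
  | v, [], w => v = w
  | v, a :: L, w => ini s t a = v ∧ Chain (ter s t a) L w

variable {s t}

lemma chain_append {L1 L2 : List (E × Bool)} :
    ∀ {v w : V}, Chain s t v (L1 ++ L2) w ↔ ∃ m, Chain s t v L1 m ∧ Chain s t m L2 w := by
  induction L1 with
  | nil => intro v w; exact ⟨fun h => ⟨v, rfl, h⟩, by rintro ⟨m, rfl, h⟩; exact h⟩
  | cons a L ih =>
    intro v w
    simp only [List.cons_append, Chain, ih]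
    constructor
    · rintro ⟨h, m, h1, h2⟩; exact ⟨m, ⟨h, h1⟩, h2⟩
    · rintro ⟨m, ⟨h, h1⟩, h2⟩; exact ⟨h, m, h1, h2⟩

lemma chain_step {L L' : List (E × Bool)} (h : FreeGroup.Red.Step L L') {v w : V}
    (hc : Chain s t v L w) : Chain s t v L' w := by
  cases h with
  | @not L1 L2 x b =>
    obtain ⟨m, h1, h2, h3, h4⟩ := chain_append.1 hc
    rw [ter_not] at h4
    exact chain_append.2 ⟨m, h1, h2 ▸ h4⟩

lemma chain_red {L L' : List (E × Bool)} (h : FreeGroup.Red L L') {v w : V}
    (hc : Chain s t v L w) : Chain s t v L' w := by
  induction h with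
  | refl => exact hc
  | tail _ h2 ih => exact chain_step h2 ih

lemma chain_reduce [DecidableEq E] {L : List (E × Bool)} {v w : V}
    (hc : Chain s t v L w) : Chain s t v (FreeGroup.reduce L) w :=
  chain_red FreeGroup.reduce.red hc

lemma chain_invRev {L : List (E × Bool)} :
    ∀ {v w : V}, Chain s t v L w → Chain s t w (FreeGroup.invRev L) v := by
  induction L with
  | nil => intro v w h; exact h.symm
  | cons a L ih =>
    intro v w h
    obtain ⟨x, b⟩ := a
    have : FreeGroup.invRev ((x, b) :: L) = FreeGroup.invRev L ++ [(x, !b)] := by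
      simp [FreeGroup.invRev]
    rw [this]
    exact chain_append.2 ⟨_, ih h.2, ini_not s t x b, (ter_not s t x b).trans h.1⟩

variable (s t) in
/-- equivariance of the two endpoint maps -/
def Equivariant (Γ : Type u) [Group Γ] [MulAction Γ E] [MulAction Γ V] : Prop :=
  (∀ (g : Γ) x, s (g • x) = g • s x) ∧ ∀ (g : Γ) x, t (g • x) = g • t x

lemma chain_smul (heq : Equivariant s t Γ) (g : Γ) {L : List (E × Bool)} :
    ∀ {v w : V}, Chain s t v L w → Chain s t (g • v) (smulL g L) (g • w) := by
  induction L with
  | nil => intro v w h; simp [smulL, Chain] at *; rw [h]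
  | cons a L ih =>
    intro v w h
    obtain ⟨x, b⟩ := a
    obtain ⟨h1, h2⟩ := h
    refine ⟨?_, ?_⟩
    · rw [← h1]; cases b
      · exact heq.2 g x
      · exact heq.1 g x
    · have h3 := ih h2
      cases b
      · show Chain s t (s (g • x)) _ _; rw [heq.1]; exact h3
      · show Chain s t (t (g • x)) _ _; rw [heq.2]; exact h3

abbrev Walker (Γ E : Type u) [Group Γ] [MulAction Γ E] := FreeGroup E ⋊[act Γ E] Γ

variable [DecidableEq E]

/-- the group of walks from the base vertex -/
def walkGroup (heq : Equivariant s t Γ) (v : V) : Subgroup (Walker Γ E) where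
  carrier := {m | Chain s t v m.left.toWord (m.right • v)}
  one_mem' := by simp [Chain]
  mul_mem' := by
    intro a b ha hb
    simp only [Set.mem_ofPred_eq, SemidirectProduct.mul_left, SemidirectProduct.mul_right,
      toWord_mul, toWord_act, mul_smul] at *
    exact chain_reduce (chain_append.2 ⟨_, ha, chain_smul heq _ hb⟩)
  inv_mem' := by
    intro a ha
    simp only [Set.mem_ofPred_eq, SemidirectProduct.inv_left, SemidirectProduct.inv_right,
      toWord_act, toWord_inv] at *
    have := chain_smul heq a.right⁻¹ (chain_invRev ha)
    rwa [inv_smul_smul] at this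

lemma mem_walkGroup (heq : Equivariant s t Γ) (v : V) (m : Walker Γ E) :
    m ∈ walkGroup heq v ↔ Chain s t v m.left.toWord (m.right • v) := Iff.rfl

omit [DecidableEq E] in
lemma right_injOn (H : Subgroup (Walker Γ E)) [Finite H] {m : Walker Γ E} (hm : m ∈ H)
    (h1 : m.right = 1) : m = 1 := by
  have hfin : IsOfFinOrder m := by
    simpa using (H.subtype.isOfFinOrder (isOfFinOrder_of_finite (⟨m, hm⟩ : H)))
  have hm' : m = SemidirectProduct.inl m.left := by
    ext
    · simp
    · simp [h1]
  have : IsOfFinOrder m.left := by
    rw [hm', SemidirectProduct.inl_injective.isOfFinOrder_iff] at hfin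
    exact hfin
  have h2 : m.left = 1 := by
    by_contra hne
    exact not_isOfFinOrder_of_isMulTorsionFree hne this
  ext
  · simp [h2]
  · simp [h1]

/-- A finite subgroup fixes a vertex of the covering tree. -/
theorem exists_fixed (heq : Equivariant s t Γ) :
    ∀ (n : ℕ) (v : V) (H : Subgroup (Walker Γ E)), Finite H →
      (∀ h ∈ H, h ∈ walkGroup heq v ∧ h.left.toWord.length ≤ n) →
      ∃ (u : FreeGroup E) (w : V), Chain s t v u.toWord w ∧
        ∀ h ∈ H, h.left = u * act Γ E h.right u⁻¹ ∧ h.right • w = w := by
  intro n
  induction n using Nat.strong_induction_on with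
  | h n ih =>
    intro v H hfin hH
    by_cases hall : ∀ h ∈ H, h.left = 1
    · refine ⟨1, v, by simp [Chain], fun h hh => ⟨by simp [hall h hh], ?_⟩⟩
      have := (hH h hh).1
      rw [mem_walkGroup, hall h hh, toWord_one] at this
      exact this.symm
    push Not at hall
    obtain ⟨h1, hh1, hne1⟩ := hall
    -- an element with the longest word
    obtain ⟨h0', hmax⟩ := Finite.exists_max (fun h : H => (h : Walker Γ E).left.toWord.length)
    obtain ⟨h0, hh0⟩ := h0'
    have hmax' : ∀ k ∈ H, k.left.toWord.length ≤ h0.left.toWord.length :=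
      fun k hk => hmax ⟨k, hk⟩
    have hpos : 0 < h0.left.toWord.length := lt_of_lt_of_le
      (List.length_pos_of_ne_nil (mt toWord_eq_nil_iff.1 hne1)) (hmax' h1 hh1)
    obtain ⟨a, T, haT⟩ := List.exists_cons_of_ne_nil (List.ne_nil_of_length_pos hpos)
    -- all nontrivial words start with `a`
    have hhead : ∀ k ∈ H, ∀ b R, k.left.toWord = b :: R → b = a := by
      intro k hk b R hbR
      by_contra hba
      have hprod : ((h0⁻¹ * k).left).toWord.length = (h0.left⁻¹ * k.left).toWord.length := by
        rw [SemidirectProduct.mul_left, SemidirectProduct.inv_left, SemidirectProduct.inv_right,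
          ← _root_.map_mul, toWord_act]
        simp [smulL]
      have hred : FreeGroup.IsReduced (invRev h0.left.toWord ++ k.left.toWord) := by
        have e : invRev h0.left.toWord = invRev T ++ [(a.1, !a.2)] := by simp [haT, invRev]
        rw [e, hbR, List.append_assoc]
        unfold FreeGroup.IsReduced
        refine List.isChain_append.2 ⟨?_, ?_, ?_⟩
        · have := (isReduced_toWord (x := h0.left⁻¹))
          rw [toWord_inv, e] at this
          exact (List.isChain_append.1 this).1
        · refine List.isChain_cons_cons.2 ⟨?_, ?_⟩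
          · intro e1
            by_contra e2
            apply hba
            obtain ⟨b1, b2⟩ := b
            obtain ⟨a1, a2⟩ := a
            simp only at e1 e2
            subst e1
            cases a2 <;> cases b2 <;> simp_all
          · have := (isReduced_toWord (x := k.left))
            rw [hbR] at this
            exact this
        · have := (isReduced_toWord (x := h0.left⁻¹))
          rw [toWord_inv, e] at this
          intro x hx y hy
          simp at hy
          subst hy
          exact (List.isChain_append.1 this).2.2 x hx _ (by simp)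
      have := hmax' _ (H.mul_mem (H.inv_mem hh0) hk)
      rw [hprod, toWord_mul, toWord_inv, hred.reduce_eq, List.length_append, invRev_length, hbR] at this
      simp at this
    -- shape of all elements
    have hshape : ∀ k ∈ H, (k.left = 1 ∧ k.right • a.1 = a.1) ∨
        ∃ mid, k.left.toWord = a :: (mid ++ [(k.right • a.1, !a.2)]) := by
      intro k hk
      by_cases hk1 : k.left = 1
      · left
        refine ⟨hk1, ?_⟩
        have hw : (k * h0).left.toWord = smulL k.right h0.left.toWord := by
          rw [SemidirectProduct.mul_left, hk1, one_mul, toWord_act]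
        rw [haT] at hw
        have := hhead _ (H.mul_mem hk hh0) _ _ hw
        exact congrArg Prod.fst this
      · right
        obtain ⟨b, R, hbR⟩ := List.exists_cons_of_ne_nil (mt toWord_eq_nil_iff.1 hk1)
        obtain rfl := hhead k hk b R hbR
        -- the inverse element
        have hinv : (k⁻¹).left.toWord = smulL k.right⁻¹ (invRev k.left.toWord) := by
          rw [SemidirectProduct.inv_left, toWord_act, toWord_inv]
        rcases List.eq_nil_or_concat' R with rfl | ⟨mid, c, rfl⟩
        · exfalso
          rw [hbR] at hinv
          simp only [invRev, smulL, List.map_cons, List.map_nil, List.reverse_cons, List.reverse_nil, List.nil_append] at hinv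
          have := congrArg Prod.snd (hhead _ (H.inv_mem hk) _ _ hinv)
          simp at this
        · refine ⟨mid, ?_⟩
          rw [hbR] at hinv
          obtain ⟨c1, c2⟩ := c
          have h' : invRev (b :: (mid ++ [(c1, c2)])) = (c1, !c2) :: invRev (b :: mid) := by
            simp [invRev]
          rw [h'] at hinv
          have h2 := hhead _ (H.inv_mem hk) _ _ hinv
          rw [hbR]
          obtain ⟨b1, b2⟩ := b
          simp only [Prod.mk.injEq] at h2
          obtain ⟨e1, e2⟩ := h2
          subst e2
          rw [← e1, smul_inv_smul, Bool.not_not]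
    -- move the base vertex along `a`
    set z : Walker Γ E := SemidirectProduct.inl (FreeGroup.mk [a]) with hz
    set H' : Subgroup (Walker Γ E) := H.map (MulAut.conj z⁻¹).toMonoidHom with hH'def
    have hfin' : Finite H' :=
      Finite.of_equiv H (H.equivMapOfInjective _ (MulAut.conj z⁻¹).injective).toEquiv
    have hform : ∀ k ∈ H, (z⁻¹ * k * z).left =
        (FreeGroup.mk [a])⁻¹ * k.left * FreeGroup.mk [(k.right • a.1, a.2)] ∧
        (z⁻¹ * k * z).right = k.right := by
      intro k _
      constructor
      · simp [hz, SemidirectProduct.mul_left, SemidirectProduct.inv_left, act_mk, smulL, mul_assoc]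
      · simp [hz]
    have hnew : ∀ k' ∈ H', k' ∈ walkGroup heq (ter s t a) ∧ k'.left.toWord.length ≤ n - 1 := by
      rintro _ ⟨k, hk, rfl⟩
      obtain ⟨hl, hr⟩ := hform k hk
      obtain ⟨hchain, hlen⟩ := hH k hk
      have hsm : k.right • ter s t a = ter s t (k.right • a.1, a.2) := by
        obtain ⟨a1, a2⟩ := a
        cases a2
        · exact (heq.1 _ _).symm
        · exact (heq.2 _ _).symm
      show (MulAut.conj z⁻¹ k) ∈ _ ∧ _ ≤ _
      simp only [MulEquiv.coe_toMonoidHom, MulAut.conj_apply, inv_inv, mem_walkGroup, hr, hl]
      obtain ⟨a1, a2⟩ := a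
      rcases hshape k hk with ⟨e1, e2⟩ | ⟨mid, hmid⟩
      · simp only at e2
        have hl1 : (FreeGroup.mk [(a1, a2)])⁻¹ * k.left * FreeGroup.mk [(k.right • a1, a2)] = 1 := by
          rw [e1, e2, mul_one, inv_mul_cancel]
        rw [hl1, hsm, e2]
        simp [Chain]
      · have hk' : k.left = FreeGroup.mk [(a1, a2)] * FreeGroup.mk mid *
            (FreeGroup.mk [(k.right • a1, a2)])⁻¹ := by
          rw [inv_mk, mul_mk, mul_mk, ← mk_toWord (x := k.left), hmid]
          simp [invRev]
        have hl1 : (FreeGroup.mk [(a1, a2)])⁻¹ * k.left * FreeGroup.mk [(k.right • a1, a2)]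
            = FreeGroup.mk mid := by
          rw [hk']; group
        have hmr : FreeGroup.IsReduced mid := by
          have := isReduced_toWord (x := k.left)
          rw [hmid] at this
          exact this.infix ⟨[(a1, a2)], [(k.right • a1, !a2)], by simp⟩
        rw [hl1, toWord_mk, hmr.reduce_eq, hsm]
        rw [mem_walkGroup, hmid] at hchain
        obtain ⟨-, hchain⟩ := hchain
        obtain ⟨m, hm1, hm2, hm3⟩ := chain_append.1 hchain
        refine ⟨?_, ?_⟩
        · rw [ini_not] at hm2
          exact hm2 ▸ hm1
        · rw [hmid] at hlen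
          simp at hlen
          omega
    have hn : n - 1 < n := by
      have := (hH h0 hh0).2
      omega
    obtain ⟨u, w, hu, hw⟩ := ih (n - 1) hn (ter s t a) H' hfin' hnew
    have hini : ini s t a = v := by
      have := (hH h0 hh0).1
      rw [mem_walkGroup, haT] at this
      exact this.1
    refine ⟨FreeGroup.mk [a] * u, w, ?_, fun k hk => ?_⟩
    · rw [toWord_mul]
      apply chain_reduce
      rw [toWord_mk, FreeGroup.IsReduced.singleton.reduce_eq]
      exact ⟨hini, hu⟩
    · obtain ⟨hl, hr⟩ := hform k hk
      have hk' : z⁻¹ * k * z ∈ H' := ⟨k, hk, by simp⟩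
      obtain ⟨e1, e2⟩ := hw _ hk'
      rw [hl, hr] at e1
      rw [hr] at e2
      refine ⟨?_, e2⟩
      have e3 : FreeGroup.mk [(k.right • a.1, a.2)] = act Γ E k.right (FreeGroup.mk [a]) := by
        simp [act_mk, smulL]
      rw [e3] at e1
      rw [mul_inv_rev, _root_.map_mul, _root_.map_inv (act Γ E k.right) (FreeGroup.mk [a])]
      rw [mul_assoc, ← mul_assoc u, ← e1]
      group

end CfsgLib.FreeRealize
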